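import Cfsg.Agent.H436.KFour
import Cfsg.Agent.H436.PslTwo

/-!
# Known simple groups of order `2^a 3^b 5^c 7^d p` (helper321)

`Ctx N p` : `N = 2^a 3^b 5^c 7^d p`, `p² ∤ N`, `N = 2 p (1 + k p)`.  The names of the known simple groups of such an
order `N` are determined (`main`).
-/

set_option autoImplicit false

namespace Cfsg.Agent.H321.Smooth

open Cfsg Cfsg.Agent.OrdDiv Cfsg.Agent.H436

/-- the arithmetic hypotheses -/
structure Ctx (N p : ℕ) : Prop where
  form : ∃ a b c d, N = 2 ^ a * 3 ^ b * 5 ^ c * 7 ^ d * p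
  prime : p.Prime
  ne_two : p ≠ 2
  sq : ¬ p ^ 2 ∣ N
  syl : ∃ k, N = 2 * p * (1 + k * p)

variable {N p : ℕ}

theorem Ctx.pos (h : Ctx N p) : 0 < N := by
  obtain ⟨a, b, c, d, rfl⟩ := h.form
  have := h.prime.pos
  positivity

theorem Ctx.dvd (h : Ctx N p) : p ∣ N := by
  obtain ⟨a, b, c, d, rfl⟩ := h.form
  exact Dvd.intro_left _ rfl

theorem Ctx.prime_mem (h : Ctx N p) {s : ℕ} (hs : s.Prime) (hd : s ∣ N) : s = 2 ∨ s = 3 ∨ s = 5 ∨ s = 7 ∨ s = p := by
  obtain ⟨a, b, c, d, rfl⟩ := h.form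
  have key : ∀ {t m : ℕ}, t.Prime → s ∣ t ^ m → s = t := fun ht hd =>
    (Nat.prime_dvd_prime_iff_eq hs ht).1 (hs.dvd_of_dvd_pow hd)
  rcases hs.dvd_mul.1 hd with hd | hd
  · rcases hs.dvd_mul.1 hd with hd | hd
    · rcases hs.dvd_mul.1 hd with hd | hd
      · rcases hs.dvd_mul.1 hd with hd | hd
        · exact Or.inl (key Nat.prime_two hd)
        · exact Or.inr (Or.inl (key Nat.prime_three hd))
      · exact Or.inr (Or.inr (Or.inl (key Nat.prime_five hd)))
    · exact Or.inr (Or.inr (Or.inr (Or.inl (key (by norm_num) hd))))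
  · exact Or.inr (Or.inr (Or.inr (Or.inr ((Nat.prime_dvd_prime_iff_eq hs h.prime).1 hd))))

/-- the exponents which are not orders modulo 3, 5, 7 -/
def Bad (e : ℕ) : Prop := e = 5 ∨ 7 ≤ e

theorem Bad.three_le {e : ℕ} (h : Bad e) : 3 ≤ e := by rcases h with h | h <;> omega

theorem Bad.ne_six {e : ℕ} (h : Bad e) : e ≠ 6 := by rcases h with h | h <;> omega

/-- the exponent of a primitive prime `s` divides `s - 1` -/
theorem dvd_pred {r e s : ℕ} (h : Prim r e s) : e ∣ s - 1 := by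
  rw [← h.dvd_iff]
  have hs : Fact s.Prime := ⟨h.prime⟩
  have h1 : (r : ZMod s) ≠ 0 := by
    intro h0
    exact h.not_dvd ((ZMod.natCast_eq_zero_iff r s).1 h0)
  have h2 := ZMod.pow_card_sub_one_eq_one h1
  have hr : 0 < r := by
    rcases Nat.eq_zero_or_pos r with h0 | h0
    · exfalso
      apply h.not_dvd
      rw [h0]
      exact dvd_zero _
    · exact h0
  have h3 : 1 ≤ r ^ (s - 1) := Nat.one_le_pow _ _ hr
  rw [← ZMod.natCast_eq_zero_iff, Nat.cast_sub h3, Nat.cast_pow, h2]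
  simp

theorem Ctx.eq_of_bad (h : Ctx N p) {r e s : ℕ} (hs : Prim r e s) (he : Bad e) (hd : s ∣ N) : s = p := by
  have h1 := dvd_pred hs
  rcases h.prime_mem hs.prime hd with rfl | rfl | rfl | rfl | h2
  · have := Nat.le_of_dvd (by norm_num) h1
    rcases he with h | h <;> omega
  · have := Nat.le_of_dvd (by norm_num) h1
    rcases he with h | h <;> omega
  · have := Nat.le_of_dvd (by norm_num) h1
    rcases he with h | h <;> omega
  · have := Nat.le_of_dvd (by norm_num) h1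
    rcases he with h | h
    · subst h
      exact absurd h1 (by norm_num)
    · omega
  · exact h2

/-- two bad exponents -/
theorem Ctx.two_bad (h : Ctx N p) {r e e' : ℕ} (hr : 2 ≤ r) (he : Bad e) (he' : Bad e') (hne : e ≠ e')
    (hd : ∀ s, Prim r e s → s ∣ N) (hd' : ∀ s, Prim r e' s → s ∣ N) : False := by
  obtain ⟨s, hs⟩ := exists_prim hr he.three_le (fun h => he.ne_six h.2)
  obtain ⟨s', hs'⟩ := exists_prim hr he'.three_le (fun h => he'.ne_six h.2)
  have h1 := h.eq_of_bad hs he (hd s hs)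
  have h2 := h.eq_of_bad hs' he' (hd' s' hs')
  subst h1
  subst h2
  exact hne (hs.unique hs')

theorem prim_root {r f k s : ℕ} (hf : 0 < f) (h : Prim r (f * k) s) : Prim (r ^ f) k s where
  prime := h.prime
  dvd_iff m := by
    rw [← pow_mul, h.dvd_iff]
    exact Nat.mul_dvd_mul_iff_left hf
  not_dvd hd := h.not_dvd (h.prime.dvd_of_dvd_pow hd)

/-- two bad exponents for `q = r ^ f` -/
theorem Ctx.two_bad' (h : Ctx N p) {r f k k' : ℕ} (hr : 2 ≤ r) (hf : 0 < f) (he : Bad (f * k)) (he' : Bad (f * k'))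
    (hne : k ≠ k') (hd : ∀ s, Prim (r ^ f) k s → s ∣ N) (hd' : ∀ s, Prim (r ^ f) k' s → s ∣ N) : False :=
  h.two_bad hr he he' (fun h => hne (Nat.eq_of_mul_eq_mul_left hf h)) (fun s hs => hd s (prim_root hf hs))
    (fun s hs => hd' s (prim_root hf hs))

/-- the characteristic -/
theorem Ctx.char (h : Ctx N p) {r f e : ℕ} (hr : r.Prime) (he : 2 ≤ f * e) (hd : (r ^ f) ^ e ∣ N) :
    r = 2 ∨ r = 3 ∨ r = 5 ∨ r = 7 := by
  rw [← pow_mul] at hd
  have h2 : r ^ 2 ∣ N := (pow_dvd_pow r he).trans hd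
  rcases h.prime_mem hr ((dvd_pow_self r (by norm_num)).trans h2) with h3 | h3 | h3 | h3 | h3
  · exact Or.inl h3
  · exact Or.inr (Or.inl h3)
  · exact Or.inr (Or.inr (Or.inl h3))
  · exact Or.inr (Or.inr (Or.inr h3))
  · subst h3
    exact absurd h2 h.sq

/-! ### the test -/

/-- the Sylow congruence fails -/
def tst (N : ℕ) : Bool :=
  Nat.blt N (2 ^ 1000) &&
  (if N / Nat.gcd N (210 ^ 1000) = 1 then
    [3, 5, 7].all (fun p => !(Nat.beq (N % p) 0 && Nat.beq (N / (2 * p) % p) 1))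
  else !(Nat.beq (N / (2 * (N / Nat.gcd N (210 ^ 1000))) % (N / Nat.gcd N (210 ^ 1000))) 1))

theorem Ctx.syl_div (h : Ctx N p) : N / (2 * p) % p = 1 := by
  obtain ⟨k, hk⟩ := h.syl
  have h3 : 0 < 2 * p := Nat.mul_pos two_pos h.prime.pos
  rw [hk, Nat.mul_div_cancel_left _ h3, Nat.add_mul_mod_self_right]
  exact Nat.mod_eq_of_lt h.prime.one_lt

theorem exp_le {r m : ℕ} (hr : 2 ≤ r) (hd : r ^ m ∣ N) (hN : 0 < N) (hlt : N < 2 ^ 1000) : m ≤ 999 := by
  have h1 : 2 ^ m ≤ r ^ m := Nat.pow_le_pow_left hr m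
  have h2 := Nat.le_of_dvd hN hd
  have h3 : 2 ^ m < 2 ^ 1000 := by omega
  have := (Nat.pow_lt_pow_iff_right (by norm_num : 1 < 2)).1 h3
  omega

theorem Ctx.false_of_tst (h : Ctx N p) (ht : tst N = true) : False := by
  have hN := h.pos
  obtain ⟨a, b, c, d, hf⟩ := h.form
  unfold tst at ht
  rw [Bool.and_eq_true, Nat.blt_eq] at ht
  obtain ⟨hlt, ht⟩ := ht
  have ha : a ≤ 999 := exp_le (r := 2) le_rfl (by rw [hf]; exact ⟨3 ^ b * 5 ^ c * 7 ^ d * p, by ring⟩) hN hlt
  have hb : b ≤ 999 := exp_le (r := 3) (by norm_num) (by rw [hf]; exact ⟨2 ^ a * 5 ^ c * 7 ^ d * p, by ring⟩) hN hlt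
  have hc : c ≤ 999 := exp_le (r := 5) (by norm_num) (by rw [hf]; exact ⟨2 ^ a * 3 ^ b * 7 ^ d * p, by ring⟩) hN hlt
  have hd : d ≤ 999 := exp_le (r := 7) (by norm_num) (by rw [hf]; exact ⟨2 ^ a * 3 ^ b * 5 ^ c * p, by ring⟩) hN hlt
  have hS : 2 ^ a * 3 ^ b * 5 ^ c * 7 ^ d ∣ 210 ^ 999 := by
    rw [show (210 : ℕ) = 2 * 3 * 5 * 7 by norm_num, mul_pow, mul_pow, mul_pow]
    exact Nat.mul_dvd_mul (Nat.mul_dvd_mul (Nat.mul_dvd_mul (pow_dvd_pow _ ha) (pow_dvd_pow _ hb))
      (pow_dvd_pow _ hc)) (pow_dvd_pow _ hd)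
  by_cases hp : p ∣ 210
  · have h1 : N ∣ 210 ^ 1000 := by
      rw [hf, pow_succ]
      exact Nat.mul_dvd_mul hS hp
    rw [Nat.gcd_eq_left h1, Nat.div_self hN, if_pos rfl, List.all_eq_true] at ht
    have h2 : p = 3 ∨ p = 5 ∨ p = 7 := by
      have h3 : p ∣ 2 * 3 * 5 * 7 := hp
      rcases h.prime.dvd_mul.1 h3 with h3 | h3
      · rcases h.prime.dvd_mul.1 h3 with h3 | h3
        · rcases h.prime.dvd_mul.1 h3 with h3 | h3
          · exact absurd ((Nat.prime_dvd_prime_iff_eq h.prime Nat.prime_two).1 h3) h.ne_two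
          · exact Or.inl ((Nat.prime_dvd_prime_iff_eq h.prime Nat.prime_three).1 h3)
        · exact Or.inr (Or.inl ((Nat.prime_dvd_prime_iff_eq h.prime Nat.prime_five).1 h3))
      · exact Or.inr (Or.inr ((Nat.prime_dvd_prime_iff_eq h.prime (by norm_num)).1 h3))
    have h4 := ht p (by simpa using h2)
    rw [Nat.mod_eq_zero_of_dvd h.dvd, h.syl_div] at h4
    exact absurd h4 (by decide)
  · have hcop : Nat.Coprime p 210 := (h.prime.coprime_iff_not_dvd).2 hp
    have h1 : Nat.gcd N (210 ^ 1000) = 2 ^ a * 3 ^ b * 5 ^ c * 7 ^ d := by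
      rw [hf, Nat.Coprime.gcd_mul_right_cancel _ (Nat.Coprime.pow_right 1000 hcop)]
      exact Nat.gcd_eq_left (hS.trans (pow_dvd_pow _ (by norm_num)))
    have h2 : N / Nat.gcd N (210 ^ 1000) = p := by
      rw [h1, hf]
      exact Nat.mul_div_cancel_left _ (by positivity)
    rw [h2, if_neg h.prime.one_lt.ne', h.syl_div] at ht
    exact absurd ht (by decide)

/-- the exceptions -/
def EXC : List Grp := [.alt 5, .alt 6, .alt 8, .psl 3 2, .psl 4 2, .psl 3 4, .psl 2 4, .psl 2 8, .psl 2 16, .psl 2 9,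
  .psl 2 27, .psl 2 81, .psl 2 5, .psl 2 25, .psl 2 7, .psl 2 2401]

def QS (F : ℕ) : List ℕ := [2, 3, 5, 7].flatMap fun r => (List.range F).map fun f => r ^ (f + 1)

theorem mem_QS {r f F : ℕ} (hr : r = 2 ∨ r = 3 ∨ r = 5 ∨ r = 7) (hf : 0 < f) (hfF : f ≤ F) : r ^ f ∈ QS F := by
  unfold QS
  rw [List.mem_flatMap]
  refine ⟨r, by simpa using hr, ?_⟩
  rw [List.mem_map]
  exact ⟨f - 1, List.mem_range.2 (by omega), by rw [Nat.sub_add_cancel hf]⟩

theorem test_psl : ∀ q ∈ QS 3, ∀ n ∈ [3, 4, 5, 6], Grp.psl n q ∈ EXC ∨ tst (ordN (.psl n q)) = true := by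
  decide +kernel

theorem test_psl2 : ∀ q ∈ QS 6, q ∈ [2, 3] ∨ Grp.psl 2 q ∈ EXC ∨ tst (ordN (.psl 2 q)) = true := by
  decide +kernel

theorem test_psp : ∀ q ∈ QS 3, ∀ n ∈ [2, 3, 4], (n = 2 ∧ q = 2) ∨ tst (ordN (.psp n q)) = true := by
  decide +kernel

theorem test_psu : ∀ q ∈ QS 3, ∀ n ∈ [3, 4, 5, 6], (n = 3 ∧ q = 2) ∨ tst (ordN (.psu n q)) = true := by
  decide +kernel

theorem test_oodd : ∀ q ∈ QS 1, ∀ n ∈ [3, 4], q = 2 ∨ tst (ordN (.oodd n q)) = true := by
  decide +kernel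

theorem test_oplus : ∀ q ∈ QS 1, ∀ n ∈ [4, 5], tst (ordN (.oplus n q)) = true := by
  decide +kernel

theorem test_ominus : ∀ q ∈ QS 1, ∀ n ∈ [4, 5], tst (ordN (.ominus n q)) = true := by
  decide +kernel

theorem test_g2 : ∀ q ∈ QS 3, q = 2 ∨ tst (ordN (.g2 q)) = true := by
  decide +kernel

theorem test_td4 : ∀ q ∈ QS 1, tst (ordN (.td4 q)) = true := by
  decide +kernel

theorem test_spor : ∀ x ∈ spor, tst x.2 = true := by
  decide +kernel

theorem test_misc : tst (ordN (.sz 8)) = true ∧ tst (ordN (.ree 27)) = true ∧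
    ∀ n ∈ [7, 9, 10, 11, 12], tst (ordN (.alt n)) = true := by
  decide +kernel

/-! ### the families -/

theorem bad_of_ge {e : ℕ} (h : 7 ≤ e) : Bad e := Or.inr h

theorem bad_five {f : ℕ} (hf : 0 < f) : Bad (f * 5) := by
  rcases Nat.lt_or_ge f 2 with h | h
  · obtain rfl : f = 1 := by omega
    exact Or.inl rfl
  · exact Or.inr (by omega)

theorem prim_dvd_mq {q k s : ℕ} (hs : Prim q k s) (hk : k ∣ 2) (h : q * (q ^ 2 - 1) ∣ N) : s ∣ N :=
  ((hs.dvd hk).mul_left q).trans h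

/-- the field: `q = r ^ f` with `r ∈ {2, 3, 5, 7}`, when `q ^ 2 ∣ N` -/
theorem Ctx.field (h : Ctx N p) {q e : ℕ} (hq : IsPrimePow q) (he : 2 ≤ e) (hd : q ^ e ∣ N) :
    ∃ r f, r.Prime ∧ 2 ≤ r ∧ 0 < f ∧ q = r ^ f ∧ (r = 2 ∨ r = 3 ∨ r = 5 ∨ r = 7) := by
  obtain ⟨r, f, hr, hf, rfl⟩ := (isPrimePow_nat_iff q).1 hq
  exact ⟨r, f, hr, hr.two_le, hf, rfl, h.char hr (show 2 ≤ f * e by nlinarith) hd⟩

theorem case_psl (h : Ctx N p) {n q : ℕ} (hn : 3 ≤ n) (hg : Cond (.psl n q)) (he : den (.psl n q) * N = num (.psl n q))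
    (ho : N = ordN (.psl n q)) : Grp.psl n q ∈ EXC := by
  have hq := hg.2.2
  have hmq := psl_mq hn hq.two_le he
  have hd : q ^ (n * (n - 1) / 2) ∣ N := by
    have h1 : Nat.Coprime (den (.psl n q)) q := by
      change (Nat.gcd n (q - 1) * (q - 1)).Coprime q
      have h1 := cop_sub (q := q) (k := 1) hq.pos le_rfl
      rw [pow_one] at h1
      exact Nat.Coprime.mul_left (Nat.Coprime.coprime_dvd_left (Nat.gcd_dvd_right _ _) h1) h1
    have h2 : q ^ (n * (n - 1) / 2) ∣ den (.psl n q) * N := by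
      rw [he]
      exact pow_dvd_glN n q
    exact Nat.Coprime.dvd_of_dvd_mul_left (Nat.Coprime.pow_left _ h1.symm) h2
  have h3 : 2 ≤ n * (n - 1) / 2 := by
    have : 3 * 2 ≤ n * (n - 1) := Nat.mul_le_mul hn (by omega)
    omega
  obtain ⟨r, f, hr, hr2, hf, hqf, hr4⟩ := h.field hq h3 hd
  subst hqf
  have hpr : ∀ e, e ≤ n → 3 ≤ e → ∀ s, Prim (r ^ f) e s → s ∣ N := fun e h1 h2 s hs => psl_prim h1 h2 he hs
  have hf3 : f ≤ 3 := by
    by_contra hcon
    exact h.two_bad' hr2 hf (k := 2) (k' := 3) (bad_of_ge (by omega)) (bad_of_ge (by omega)) (by norm_num)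
      (fun s hs => prim_dvd_mq hs dvd_rfl hmq) (hpr 3 hn le_rfl)
  have hn6 : n ≤ 6 := by
    by_contra hcon
    exact h.two_bad' hr2 hf (k := 5) (k' := 7) (bad_five hf) (bad_of_ge (by omega)) (by norm_num)
      (hpr 5 (by omega) (by norm_num)) (hpr 7 (by omega) (by norm_num))
  rcases test_psl _ (mem_QS hr4 hf hf3) n (by simp; omega) with h4 | h4
  · exact h4
  · rw [← ho] at h4
    exact (h.false_of_tst h4).elim

theorem case_psp (h : Ctx N p) {n q : ℕ} (hg : Cond (.psp n q)) (he : den (.psp n q) * N = num (.psp n q))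
    (ho : N = ordN (.psp n q)) : False := by
  obtain ⟨hn, hn2, hq⟩ := hg
  have hmq := psp_mq hn he
  have hd : q ^ (n ^ 2) ∣ N := by
    have h1 : Nat.Coprime (den (.psp n q)) q := by
      change (Nat.gcd 2 (q - 1)).Coprime q
      have h1 := cop_sub (q := q) (k := 1) hq.pos le_rfl
      rw [pow_one] at h1
      exact Nat.Coprime.coprime_dvd_left (Nat.gcd_dvd_right _ _) h1
    have h2 : q ^ (n ^ 2) ∣ den (.psp n q) * N := by
      rw [he]
      exact Dvd.intro _ rfl
    exact Nat.Coprime.dvd_of_dvd_mul_left (Nat.Coprime.pow_left _ h1.symm) h2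
  obtain ⟨r, f, hr, hr2, hf, hqf, hr4⟩ := h.field hq (by nlinarith) hd
  subst hqf
  have hpr : ∀ k, 1 ≤ k → k ≤ n → 2 ≤ k → ∀ s, Prim (r ^ f) (2 * k) s → s ∣ N := fun k h1 h2 h3 s hs =>
    psp_prim k h1 h2 dvd_rfl (by omega) he hs
  have hf3 : f ≤ 3 := by
    by_contra hcon
    exact h.two_bad' hr2 hf (k := 2) (k' := 4) (bad_of_ge (by omega)) (bad_of_ge (by omega)) (by norm_num)
      (fun s hs => prim_dvd_mq hs dvd_rfl hmq) (hpr 2 (by norm_num) hn le_rfl)
  have hn4 : n ≤ 4 := by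
    by_contra hcon
    exact h.two_bad' hr2 hf (k := 8) (k' := 10) (bad_of_ge (by omega)) (bad_of_ge (by omega)) (by norm_num)
      (hpr 4 (by omega) (by omega) (by norm_num)) (hpr 5 (by omega) (by omega) (by norm_num))
  rcases test_psp _ (mem_QS hr4 hf hf3) n (by simp; omega) with ⟨h4, h5⟩ | h4
  · have := hn2 h4
    omega
  · rw [← ho] at h4
    exact h.false_of_tst h4

theorem case_psu (h : Ctx N p) {n q : ℕ} (hg : Cond (.psu n q)) (he : den (.psu n q) * N = num (.psu n q))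
    (ho : N = ordN (.psu n q)) : False := by
  obtain ⟨hn, hn2, hq⟩ := hg
  have hmq := psu_mq hn he
  have hd : q ^ (n * (n - 1) / 2) ∣ N := by
    have h1 : Nat.Coprime (den (.psu n q)) q := by
      change (Nat.gcd n (q + 1) * (q + 1)).Coprime q
      have h1 := cop_add (q := q) (k := 1) le_rfl
      rw [pow_one] at h1
      exact Nat.Coprime.mul_left (Nat.Coprime.coprime_dvd_left (Nat.gcd_dvd_right _ _) h1) h1
    have h2 : q ^ (n * (n - 1) / 2) ∣ den (.psu n q) * N := by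
      rw [he]
      exact Dvd.intro _ rfl
    exact Nat.Coprime.dvd_of_dvd_mul_left (Nat.Coprime.pow_left _ h1.symm) h2
  have h3 : 2 ≤ n * (n - 1) / 2 := by
    have : 3 * 2 ≤ n * (n - 1) := Nat.mul_le_mul hn (by omega)
    omega
  obtain ⟨r, f, hr, hr2, hf, hqf, hr4⟩ := h.field hq h3 hd
  subst hqf
  have p6 : ∀ s, Prim (r ^ f) 6 s → s ∣ N := fun s hs => psu_prim_aux (i := 2) (by omega) (by norm_num) he hs
    (by rw [fU_three]; exact hs.dvd_add (by norm_num) (by norm_num))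
  have p10 : 5 ≤ n → ∀ s, Prim (r ^ f) 10 s → s ∣ N := fun h s hs =>
    psu_prim_aux (i := 4) (by omega) (by norm_num) he hs
      (by rw [fU_five]; exact hs.dvd_add (by norm_num) (by norm_num))
  have p14 : 7 ≤ n → ∀ s, Prim (r ^ f) 14 s → s ∣ N := fun h s hs =>
    psu_prim_aux (i := 6) (by omega) (by norm_num) he hs
      (by change s ∣ (r ^ f) ^ 7 + 1; exact hs.dvd_add (by norm_num) (by norm_num))
  have hf3 : f ≤ 3 := by
    by_contra hcon
    exact h.two_bad' hr2 hf (k := 2) (k' := 6) (bad_of_ge (by omega)) (bad_of_ge (by omega)) (by norm_num)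
      (fun s hs => prim_dvd_mq hs dvd_rfl hmq) p6
  have hn6 : n ≤ 6 := by
    by_contra hcon
    exact h.two_bad' hr2 hf (k := 10) (k' := 14) (bad_of_ge (by omega)) (bad_of_ge (by omega)) (by norm_num)
      (p10 (by omega)) (p14 (by omega))
  rcases test_psu _ (mem_QS hr4 hf hf3) n (by simp; omega) with h4 | h4
  · exact hn2 h4
  · rw [← ho] at h4
    exact h.false_of_tst h4

theorem case_oodd (h : Ctx N p) {n q : ℕ} (hg : Cond (.oodd n q)) (he : den (.oodd n q) * N = num (.oodd n q))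
    (ho : N = ordN (.oodd n q)) : False := by
  obtain ⟨hn, hodd, hq⟩ := hg
  have hmq := oodd_mq (by omega) hodd he
  have hd : q ^ (n ^ 2) ∣ N := by
    have h2 : q ^ (n ^ 2) ∣ den (.oodd n q) * N := by
      rw [he]
      exact Dvd.intro _ rfl
    exact Nat.Coprime.dvd_of_dvd_mul_left (Nat.Coprime.pow_left _ (Nat.coprime_two_right.2 hodd)) h2
  obtain ⟨r, f, hr, hr2, hf, hqf, hr4⟩ := h.field hq (by nlinarith) hd
  subst hqf
  have hpr : ∀ k, 1 ≤ k → k ≤ n → 2 ≤ k → ∀ s, Prim (r ^ f) (2 * k) s → s ∣ N := fun k h1 h2 h3 s hs =>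
    oodd_prim k h1 h2 dvd_rfl (by omega) he hs
  have hf3 : f ≤ 1 := by
    by_contra hcon
    exact h.two_bad' hr2 hf (k := 4) (k' := 6) (bad_of_ge (by omega)) (bad_of_ge (by omega)) (by norm_num)
      (hpr 2 (by norm_num) (by omega) le_rfl) (hpr 3 (by norm_num) hn (by norm_num))
  have hn4 : n ≤ 4 := by
    by_contra hcon
    exact h.two_bad' hr2 hf (k := 8) (k' := 10) (bad_of_ge (by omega)) (bad_of_ge (by omega)) (by norm_num)
      (hpr 4 (by omega) (by omega) (by norm_num)) (hpr 5 (by omega) (by omega) (by norm_num))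
  rcases test_oodd _ (mem_QS hr4 hf hf3) n (by simp; omega) with h4 | h4
  · rw [h4] at hodd
    exact absurd hodd (by decide)
  · rw [← ho] at h4
    exact h.false_of_tst h4

theorem case_oplus (h : Ctx N p) {n q : ℕ} (hg : Cond (.oplus n q)) (he : den (.oplus n q) * N = num (.oplus n q))
    (ho : N = ordN (.oplus n q)) : False := by
  obtain ⟨hn, hq⟩ := hg
  have hmq := oplus_mq hn he
  have hmm : 4 * 3 ≤ n * (n - 1) := Nat.mul_le_mul hn (by omega)
  have hd : q ^ (n * (n - 1)) ∣ N := by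
    have h1 : Nat.Coprime (den (.oplus n q)) q := by
      change (Nat.gcd 4 (q ^ n - 1)).Coprime q
      exact Nat.Coprime.coprime_dvd_left (Nat.gcd_dvd_right _ _) (cop_sub hq.pos (by omega))
    have h2 : q ^ (n * (n - 1)) ∣ den (.oplus n q) * N := by
      rw [he]
      exact Dvd.intro _ rfl
    exact Nat.Coprime.dvd_of_dvd_mul_left (Nat.Coprime.pow_left _ h1.symm) h2
  obtain ⟨r, f, hr, hr2, hf, hqf, hr4⟩ := h.field hq (by omega) hd
  subst hqf
  have hpr : ∀ k, 1 ≤ k → k ≤ n - 1 → 2 ≤ k → ∀ s, Prim (r ^ f) (2 * k) s → s ∣ N := fun k h1 h2 h3 s hs =>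
    oplus_prim k h1 h2 dvd_rfl (by omega) he hs
  have hf3 : f ≤ 1 := by
    by_contra hcon
    exact h.two_bad' hr2 hf (k := 4) (k' := 6) (bad_of_ge (by omega)) (bad_of_ge (by omega)) (by norm_num)
      (hpr 2 (by norm_num) (by omega) le_rfl) (hpr 3 (by norm_num) (by omega) (by norm_num))
  have hn4 : n ≤ 5 := by
    by_contra hcon
    exact h.two_bad' hr2 hf (k := 8) (k' := 10) (bad_of_ge (by omega)) (bad_of_ge (by omega)) (by norm_num)
      (hpr 4 (by omega) (by omega) (by norm_num)) (hpr 5 (by omega) (by omega) (by norm_num))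
  have h4 := test_oplus _ (mem_QS hr4 hf hf3) n (by simp; omega)
  rw [← ho] at h4
  exact h.false_of_tst h4

theorem case_ominus (h : Ctx N p) {n q : ℕ} (hg : Cond (.ominus n q)) (he : den (.ominus n q) * N = num (.ominus n q))
    (ho : N = ordN (.ominus n q)) : False := by
  obtain ⟨hn, hq⟩ := hg
  have hmq := ominus_mq hn he
  have hmm : 4 * 3 ≤ n * (n - 1) := Nat.mul_le_mul hn (by omega)
  have hd : q ^ (n * (n - 1)) ∣ N := by
    have h1 : Nat.Coprime (den (.ominus n q)) q := by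
      change (Nat.gcd 4 (q ^ n + 1)).Coprime q
      exact Nat.Coprime.coprime_dvd_left (Nat.gcd_dvd_right _ _) (cop_add (by omega))
    have h2 : q ^ (n * (n - 1)) ∣ den (.ominus n q) * N := by
      rw [he]
      exact Dvd.intro _ rfl
    exact Nat.Coprime.dvd_of_dvd_mul_left (Nat.Coprime.pow_left _ h1.symm) h2
  obtain ⟨r, f, hr, hr2, hf, hqf, hr4⟩ := h.field hq (by omega) hd
  subst hqf
  have hpr : ∀ k, 1 ≤ k → k ≤ n - 1 → 2 ≤ k → ∀ s, Prim (r ^ f) (2 * k) s → s ∣ N := fun k h1 h2 h3 s hs =>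
    ominus_prim k h1 h2 dvd_rfl (by omega) he hs
  have hf3 : f ≤ 1 := by
    by_contra hcon
    exact h.two_bad' hr2 hf (k := 4) (k' := 6) (bad_of_ge (by omega)) (bad_of_ge (by omega)) (by norm_num)
      (hpr 2 (by norm_num) (by omega) le_rfl) (hpr 3 (by norm_num) (by omega) (by norm_num))
  have hn4 : n ≤ 5 := by
    by_contra hcon
    exact h.two_bad' hr2 hf (k := 8) (k' := 10) (bad_of_ge (by omega)) (bad_of_ge (by omega)) (by norm_num)
      (hpr 4 (by omega) (by omega) (by norm_num)) (hpr 5 (by omega) (by omega) (by norm_num))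
  have h4 := test_ominus _ (mem_QS hr4 hf hf3) n (by simp; omega)
  rw [← ho] at h4
  exact h.false_of_tst h4

theorem case_g2 (h : Ctx N p) {q : ℕ} (hg : Cond (.g2 q)) (he : den (.g2 q) * N = num (.g2 q))
    (ho : N = ordN (.g2 q)) : False := by
  obtain ⟨hq3, hq⟩ := hg
  have h1 : 1 * N = q ^ 6 * ((q ^ 2 - 1) * (q ^ 6 - 1)) := he
  rw [one_mul] at h1
  have hd : q ^ 6 ∣ N := by rw [h1]; exact Dvd.intro _ rfl
  obtain ⟨r, f, hr, hr2, hf, hqf, hr4⟩ := h.field hq (by norm_num) hd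
  subst hqf
  have hpr : ∀ k, k ∣ 6 → ∀ s, Prim (r ^ f) k s → s ∣ N := fun k hk s hs => by
    rw [h1]
    exact ((hs.dvd hk).mul_left _).mul_left _
  have hf3 : f ≤ 3 := by
    by_contra hcon
    exact h.two_bad' hr2 hf (k := 2) (k' := 6) (bad_of_ge (by omega)) (bad_of_ge (by omega)) (by norm_num)
      (hpr 2 (by norm_num)) (hpr 6 dvd_rfl)
  rcases test_g2 _ (mem_QS hr4 hf hf3) with h4 | h4
  · omega
  · rw [← ho] at h4
    exact h.false_of_tst h4

theorem Ctx.two_bad_pp (h : Ctx N p) {q k k' : ℕ} (hq : IsPrimePow q) (he : 7 ≤ k) (he' : 7 ≤ k')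
    (hne : k ≠ k') (hd : ∀ s, Prim q k s → s ∣ N) (hd' : ∀ s, Prim q k' s → s ∣ N) : False := by
  obtain ⟨r, f, hr, hf, rfl⟩ := (isPrimePow_nat_iff q).1 hq
  exact h.two_bad' hr.two_le hf (bad_of_ge (by nlinarith)) (bad_of_ge (by nlinarith)) hne hd hd'

theorem case_f4 (h : Ctx N p) {q : ℕ} (hg : Cond (.f4 q)) (he : den (.f4 q) * N = num (.f4 q)) : False := by
  have h1 : 1 * N = q ^ 24 * ((q ^ 2 - 1) * (q ^ 6 - 1) * (q ^ 8 - 1) * (q ^ 12 - 1)) := he
  rw [one_mul] at h1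
  refine h.two_bad_pp hg (k := 8) (k' := 12) (by norm_num) (by norm_num) (by norm_num) (fun s hs => ?_) (fun s hs => ?_)
  · rw [h1]; exact (((hs.dvd dvd_rfl).mul_left _).mul_right _).mul_left _
  · rw [h1]; exact ((hs.dvd dvd_rfl).mul_left _).mul_left _

theorem case_e6 (h : Ctx N p) {q : ℕ} (hg : Cond (.e6 q)) (he : den (.e6 q) * N = num (.e6 q)) : False := by
  have h1 : Nat.gcd 3 (q - 1) * N =
    q ^ 36 * ((q ^ 2 - 1) * (q ^ 5 - 1) * (q ^ 6 - 1) * (q ^ 8 - 1) * (q ^ 9 - 1) * (q ^ 12 - 1)) := he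
  refine h.two_bad_pp hg (k := 9) (k' := 12) (by norm_num) (by norm_num) (by norm_num) (fun s hs => ?_) (fun s hs => ?_)
  · exact hs.dvd_of_eq h1 ((((hs.dvd dvd_rfl).mul_left _).mul_right _).mul_left _)
      (hs.not_dvd_gcd_sub (by norm_num))
  · exact hs.dvd_of_eq h1 (((hs.dvd dvd_rfl).mul_left _).mul_left _) (hs.not_dvd_gcd_sub (by norm_num))

theorem case_e7 (h : Ctx N p) {q : ℕ} (hg : Cond (.e7 q)) (he : den (.e7 q) * N = num (.e7 q)) : False := by
  have h1 : Nat.gcd 2 (q - 1) * N = q ^ 63 * ((q ^ 2 - 1) * (q ^ 6 - 1) * (q ^ 8 - 1) * (q ^ 10 - 1) *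
    (q ^ 12 - 1) * (q ^ 14 - 1) * (q ^ 18 - 1)) := he
  refine h.two_bad_pp hg (k := 14) (k' := 18) (by norm_num) (by norm_num) (by norm_num) (fun s hs => ?_)
    (fun s hs => ?_)
  · exact hs.dvd_of_eq h1 ((((hs.dvd dvd_rfl).mul_left _).mul_right _).mul_left _)
      (hs.not_dvd_gcd_sub (by norm_num))
  · exact hs.dvd_of_eq h1 (((hs.dvd dvd_rfl).mul_left _).mul_left _) (hs.not_dvd_gcd_sub (by norm_num))

theorem case_e8 (h : Ctx N p) {q : ℕ} (hg : Cond (.e8 q)) (he : den (.e8 q) * N = num (.e8 q)) : False := by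
  have h1 : 1 * N = q ^ 120 * ((q ^ 2 - 1) * (q ^ 8 - 1) * (q ^ 12 - 1) * (q ^ 14 - 1) * (q ^ 18 - 1) *
      (q ^ 20 - 1) * (q ^ 24 - 1) * (q ^ 30 - 1)) := he
  rw [one_mul] at h1
  refine h.two_bad_pp hg (k := 24) (k' := 30) (by norm_num) (by norm_num) (by norm_num) (fun s hs => ?_)
    (fun s hs => ?_)
  · rw [h1]; exact (((hs.dvd dvd_rfl).mul_left _).mul_right _).mul_left _
  · rw [h1]; exact ((hs.dvd dvd_rfl).mul_left _).mul_left _

theorem case_te6 (h : Ctx N p) {q : ℕ} (hg : Cond (.te6 q)) (he : den (.te6 q) * N = num (.te6 q)) : False := by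
  have h1 : Nat.gcd 3 (q + 1) * N =
    q ^ 36 * ((q ^ 2 - 1) * (q ^ 5 + 1) * (q ^ 6 - 1) * (q ^ 8 - 1) * (q ^ 9 + 1) * (q ^ 12 - 1)) := he
  refine h.two_bad_pp hg (k := 18) (k' := 12) (by norm_num) (by norm_num) (by norm_num) (fun s hs => ?_)
    (fun s hs => ?_)
  · exact hs.dvd_of_eq h1 ((((hs.dvd_add (m := 9) (by norm_num) (by norm_num)).mul_left _).mul_right _).mul_left _)
      (hs.not_dvd_gcd_add (by norm_num))
  · exact hs.dvd_of_eq h1 (((hs.dvd dvd_rfl).mul_left _).mul_left _) (hs.not_dvd_gcd_add (by norm_num))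

theorem case_td4 (h : Ctx N p) {q : ℕ} (hg : Cond (.td4 q)) (he : den (.td4 q) * N = num (.td4 q))
    (ho : N = ordN (.td4 q)) : False := by
  have hq : IsPrimePow q := hg
  have h1 : 1 * N = q ^ 12 * ((q ^ 2 - 1) * (q ^ 6 - 1) * (q ^ 8 + q ^ 4 + 1)) := he
  rw [one_mul] at h1
  have hd : q ^ 12 ∣ N := by rw [h1]; exact Dvd.intro _ rfl
  obtain ⟨r, f, hr, hr2, hf, hqf, hr4⟩ := h.field hq (by norm_num) hd
  subst hqf
  have hpr : ∀ k, k ∣ 6 → ∀ s, Prim (r ^ f) k s → s ∣ N := fun k hk s hs => by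
    rw [h1]
    exact (((hs.dvd hk).mul_left _).mul_right _).mul_left _
  have hf1 : f ≤ 1 := by
    by_contra hcon
    refine h.two_bad' hr2 hf (k := 12) (k' := 6) (bad_of_ge (by omega)) (bad_of_ge (by omega)) (by norm_num)
      (fun s hs => ?_) (hpr 6 dvd_rfl)
    rw [h1]
    generalize r ^ f = q at *
    have h2 : q ^ 12 - 1 = (q ^ 4 - 1) * (q ^ 8 + q ^ 4 + 1) := by
      obtain ⟨k, hk⟩ : ∃ k, q ^ 4 = k + 1 := ⟨q ^ 4 - 1, by have := Nat.one_le_pow 4 q hq.pos; omega⟩
      have h3 : q ^ 12 = (q ^ 4) ^ 3 := by ring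
      have h5 : q ^ 8 = (q ^ 4) ^ 2 := by ring
      rw [h3, h5, hk, Nat.add_sub_cancel]
      have : (k + 1) ^ 3 = k * ((k + 1) ^ 2 + (k + 1) + 1) + 1 := by ring
      rw [this, Nat.add_sub_cancel]
    have h3 := hs.dvd (m := 12) dvd_rfl
    rw [h2] at h3
    exact (((hs.prime.dvd_mul.1 h3).resolve_left (hs.not_dvd_sub (by norm_num))).mul_left _).mul_left _
  have h4 := test_td4 _ (mem_QS hr4 hf hf1)
  rw [← ho] at h4
  exact h.false_of_tst h4

theorem case_sz (h : Ctx N p) {q : ℕ} (hg : Cond (.sz q)) (he : den (.sz q) * N = num (.sz q))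
    (ho : N = ordN (.sz q)) : False := by
  obtain ⟨m, hm1, hqm⟩ := hg
  have h1 : 1 * N = q ^ 2 * ((q - 1) * (q ^ 2 + 1)) := he
  rw [one_mul] at h1
  subst hqm
  obtain rfl | hm2 : m = 1 ∨ 2 ≤ m := by omega
  · have h4 := test_misc.1
    rw [show (8 : ℕ) = 2 ^ (2 * 1 + 1) by norm_num, ← ho] at h4
    exact h.false_of_tst h4
  · refine h.two_bad' (r := 2) (f := 2 * m + 1) le_rfl (by omega) (k := 1) (k' := 4) ?_ (bad_of_ge (by omega))
      (by norm_num) (fun s hs => ?_) (fun s hs => ?_)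
    · rcases (show m = 2 ∨ 3 ≤ m by omega) with rfl | hm3
      · exact Or.inl rfl
      · exact Or.inr (by omega)
    · rw [h1]
      have := hs.dvd (m := 1) dvd_rfl
      rw [pow_one] at this
      exact (this.mul_right _).mul_left _
    · rw [h1]
      exact ((hs.dvd_add (m := 2) (by norm_num) (by norm_num)).mul_left _).mul_left _

theorem case_ree (h : Ctx N p) {q : ℕ} (hg : Cond (.ree q)) (he : den (.ree q) * N = num (.ree q))
    (ho : N = ordN (.ree q)) : False := by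
  obtain ⟨m, hm1, hqm⟩ := hg
  have h1 : 1 * N = q ^ 3 * ((q - 1) * (q ^ 3 + 1)) := he
  rw [one_mul] at h1
  subst hqm
  obtain rfl | hm2 : m = 1 ∨ 2 ≤ m := by omega
  · have h4 := test_misc.2.1
    rw [show (27 : ℕ) = 3 ^ (2 * 1 + 1) by norm_num, ← ho] at h4
    exact h.false_of_tst h4
  · refine h.two_bad' (r := 3) (f := 2 * m + 1) (by norm_num) (by omega) (k := 2) (k' := 6) (bad_of_ge (by omega))
      (bad_of_ge (by omega)) (by norm_num) (fun s hs => ?_) (fun s hs => ?_)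
    · rw [h1]
      exact ((hs.dvd_add (m := 3) (by norm_num) (by norm_num)).mul_left _).mul_left _
    · rw [h1]
      exact ((hs.dvd_add (m := 3) (by norm_num) (by norm_num)).mul_left _).mul_left _

theorem case_tf4 (h : Ctx N p) {q : ℕ} (hg : Cond (.tf4 q)) (he : den (.tf4 q) * N = num (.tf4 q)) : False := by
  obtain ⟨m, hm1, hqm⟩ := hg
  have h1 : 1 * N = q ^ 12 * ((q - 1) * (q ^ 3 + 1) * (q ^ 4 - 1) * (q ^ 6 + 1)) := he
  rw [one_mul] at h1
  subst hqm
  refine h.two_bad' (r := 2) (f := 2 * m + 1) le_rfl (by omega) (k := 4) (k' := 12) (bad_of_ge (by omega))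
    (bad_of_ge (by omega)) (by norm_num) (fun s hs => ?_) (fun s hs => ?_)
  · rw [h1]
    exact (((hs.dvd (m := 4) dvd_rfl).mul_left _).mul_right _).mul_left _
  · rw [h1]
    exact ((hs.dvd_add (m := 6) (by norm_num) (by norm_num)).mul_left _).mul_left _

theorem case_alt (h : Ctx N p) {n : ℕ} (hg : Cond (.alt n)) (he : den (.alt n) * N = num (.alt n))
    (ho : N = ordN (.alt n)) : Grp.alt n ∈ EXC := by
  have hn : 5 ≤ n := hg
  rcases Nat.lt_or_ge n 13 with hlt | hge
  · have h0 : n = 5 ∨ n = 6 ∨ n = 8 ∨ n ∈ [7, 9, 10, 11, 12] := by simp; omega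
    rcases h0 with rfl | rfl | rfl | h0
    · decide
    · decide
    · decide
    · have h4 := test_misc.2.2 n h0
      rw [← ho] at h4
      exact (h.false_of_tst h4).elim
  · exfalso
    have h1 : 2 * N = n.factorial := he
    have key : ∀ s, s.Prime → 11 ≤ s → s ≤ 13 → s = p := fun s hs h11 h13 => by
      have h2 : s ∣ 2 * N := by
        rw [h1]
        exact (hs.dvd_factorial).2 (by omega)
      have h3 : s ∣ N := (hs.dvd_mul.1 h2).resolve_left (fun h => by
        have := Nat.le_of_dvd two_pos h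
        omega)
      rcases h.prime_mem hs h3 with h4 | h4 | h4 | h4 | h4
      · omega
      · omega
      · omega
      · omega
      · exact h4
    have h11 := key 11 (by norm_num) le_rfl (by norm_num)
    have h13 := key 13 (by norm_num) (by norm_num) le_rfl
    omega

theorem case_psl2 (h : Ctx N p) {q : ℕ} (hg : Cond (.psl 2 q)) (he : den (.psl 2 q) * N = num (.psl 2 q))
    (ho : N = ordN (.psl 2 q)) : Grp.psl 2 q ∈ EXC := by
  obtain ⟨-, h4, hq⟩ := hg
  have h4 := h4 rfl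
  have hq2 := hq.two_le
  have hdq : q ∣ N := by
    rcases Nat.mod_two_eq_zero_or_one q with h2 | h2
    · rw [psl_two_even hq2 h2 he]
      exact Dvd.intro _ rfl
    · have h1 := psl_two_odd hq2 h2 he
      exact Nat.Coprime.dvd_of_dvd_mul_left (Nat.coprime_two_right.2 (Nat.odd_iff.2 h2)) (h1 ▸ Dvd.intro _ rfl)
  have heq := psl_two_eq hq2 he
  obtain ⟨r, f, hr, hf, rfl⟩ := (isPrimePow_nat_iff q).1 hq
  by_cases hr4 : r = 2 ∨ r = 3 ∨ r = 5 ∨ r = 7
  · have hf6 : f ≤ 6 := by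
      by_contra hcon
      have key : ∀ k, k ∣ 2 → ∀ s, Prim r (f * k) s → s ∣ N := by
        intro k hk s hs
        have hk0 : 0 < k := Nat.pos_of_dvd_of_pos hk two_pos
        have h3 : 3 ≤ f * k := by nlinarith
        refine hs.dvd_of_eq heq ?_ ?_
        · exact ((prim_root hf hs).dvd hk).mul_left _
        · intro hd
          exact hs.not_dvd_two h3 (hd.trans (Nat.gcd_dvd_left _ _))
      exact h.two_bad hr.two_le (e := f * 1) (e' := f * 2) (bad_of_ge (by omega)) (bad_of_ge (by omega)) (by omega)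
        (key 1 (by norm_num)) (key 2 dvd_rfl)
    rcases test_psl2 _ (mem_QS hr4 hf hf6) with h5 | h5 | h5
    · simp only [List.mem_cons, List.not_mem_nil, or_false] at h5
      omega
    · exact h5
    · rw [← ho] at h5
      exact (h.false_of_tst h5).elim
  · exfalso
    have hrp : r = p := by
      rcases h.prime_mem hr ((dvd_pow_self r hf.ne').trans hdq) with h3 | h3 | h3 | h3 | h3
      · exact absurd (Or.inl h3) hr4
      · exact absurd (Or.inr (Or.inl h3)) hr4
      · exact absurd (Or.inr (Or.inr (Or.inl h3))) hr4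
      · exact absurd (Or.inr (Or.inr (Or.inr h3))) hr4
      · exact h3
    subst hrp
    have hf1 : f = 1 := by
      by_contra hcon
      exact h.sq ((pow_dvd_pow r (by omega : 2 ≤ f)).trans hdq)
    subst hf1
    rw [pow_one] at *
    have hodd : r % 2 = 1 := Nat.odd_iff.1 (hr.odd_of_ne_two h.ne_two)
    have h1 := psl_two_odd hq2 hodd he
    obtain ⟨k, hk⟩ := h.syl
    have h5 : 4 * (1 + k * r) = r ^ 2 - 1 := by
      apply Nat.eq_of_mul_eq_mul_left hr.pos
      rw [← h1, hk]; ring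
    have h6 : r ^ 2 = 4 * (1 + k * r) + 1 := by
      have : 1 ≤ r ^ 2 := Nat.one_le_pow _ _ hr.pos
      omega
    have h7 : r ∣ 5 := by
      have h8 : r ∣ 5 + r * (4 * k) := by
        have h9 : r ^ 2 = 5 + r * (4 * k) := by rw [h6]; ring
        rw [← h9]
        exact dvd_pow_self r (by norm_num)
      exact (Nat.dvd_add_left (Dvd.intro _ rfl)).1 h8
    exact hr4 (Or.inr (Or.inr (Or.inl ((Nat.prime_dvd_prime_iff_eq hr Nat.prime_five).1 h7))))

/-- **The names of the simple groups of order `2^a 3^b 5^c 7^d p` satisfying the Sylow congruence.** -/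
theorem main (h : Ctx N p) {g : Grp} (hg : Cond g) (he : den g * N = num g) (ho : N = ordN g) : g ∈ EXC := by
  have hspor : ∀ x : Grp × ℕ, x ∈ spor → x.1 = g → g ∈ EXC := by
    rintro x hx rfl
    exfalso
    have h1 := test_spor x hx
    rw [← spor_ord x hx, ← ho] at h1
    exact h.false_of_tst h1
  cases g with
  | alt n => exact case_alt h hg he ho
  | psl n q =>
    obtain rfl | hn3 : n = 2 ∨ 3 ≤ n := by have := hg.1; omega
    · exact case_psl2 h hg he ho
    · exact case_psl h hn3 hg he ho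
  | psp n q => exact (case_psp h hg he ho).elim
  | psu n q => exact (case_psu h hg he ho).elim
  | oodd n q => exact (case_oodd h hg he ho).elim
  | oplus n q => exact (case_oplus h hg he ho).elim
  | ominus n q => exact (case_ominus h hg he ho).elim
  | g2 q => exact (case_g2 h hg he ho).elim
  | f4 q => exact (case_f4 h hg he).elim
  | e6 q => exact (case_e6 h hg he).elim
  | e7 q => exact (case_e7 h hg he).elim
  | e8 q => exact (case_e8 h hg he).elim
  | te6 q => exact (case_te6 h hg he).elim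
  | td4 q => exact (case_td4 h hg he ho).elim
  | sz q => exact (case_sz h hg he ho).elim
  | ree q => exact (case_ree h hg he ho).elim
  | tf4 q => exact (case_tf4 h hg he).elim
  | tits => exact hspor (_, 17971200) (by decide) rfl
  | m11 => exact hspor (_, 7920) (by decide) rfl
  | m12 => exact hspor (_, 95040) (by decide) rfl
  | m22 => exact hspor (_, 443520) (by decide) rfl
  | m23 => exact hspor (_, 10200960) (by decide) rfl
  | m24 => exact hspor (_, 244823040) (by decide) rfl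
  | j1 => exact hspor (_, 175560) (by decide) rfl
  | j2 => exact hspor (_, 604800) (by decide) rfl
  | j3 => exact hspor (_, 50232960) (by decide) rfl
  | j4 => exact hspor (_, 86775571046077562880) (by decide) rfl
  | co1 => exact hspor (_, 4157776806543360000) (by decide) rfl
  | co2 => exact hspor (_, 42305421312000) (by decide) rfl
  | co3 => exact hspor (_, 495766656000) (by decide) rfl
  | mcl => exact hspor (_, 898128000) (by decide) rfl
  | hs => exact hspor (_, 44352000) (by decide) rfl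
  | suz => exact hspor (_, 448345497600) (by decide) rfl
  | he => exact hspor (_, 4030387200) (by decide) rfl
  | ru => exact hspor (_, 145926144000) (by decide) rfl
  | on => exact hspor (_, 460815505920) (by decide) rfl
  | ly => exact hspor (_, 51765179004000000) (by decide) rfl
  | fi22 => exact hspor (_, 64561751654400) (by decide) rfl
  | fi23 => exact hspor (_, 4089470473293004800) (by decide) rfl
  | fi24 => exact hspor (_, 1255205709190661721292800) (by decide) rfl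
  | hn => exact hspor (_, 273030912000000) (by decide) rfl
  | th => exact hspor (_, 90745943887872000) (by decide) rfl
  | b => exact hspor (_, 4154781481226426191177580544000000) (by decide) rfl
  | m => exact hspor (_, 808017424794512875886459904961710757005754368000000000) (by decide) rfl

end Cfsg.Agent.H321.Smooth
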